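import Mathlib
import Cfsg.Agent.Lib.Cores
import Cfsg.Agent.Lib.SylowNormalInf
import Cfsg.Agent.Transfer.Residual
import Cfsg.Agent.S0048
set_option linter.all false

/-!
# Powers `x ^ [G : H]` and subgroups
-/

set_option autoImplicit false

namespace Cfsg.Agent.H555.IndexPow

open Subgroup

/-- If `y ^ n ∈ H` with `n` coprime to the order of `y` then `y ∈ H`. -/
theorem mem_of_pow_mem {G : Type*} [Group G] {H : Subgroup G} {y : G} {n : ℕ} (hn : n.Coprime (orderOf y))
    (h : y ^ n ∈ H) : y ∈ H := by
  obtain ⟨m, hm⟩ := exists_pow_eq_self_of_coprime hn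
  rw [← hm]
  exact H.pow_mem h m

/-- A Hall subgroup which contains all `[G : H]`-th powers is normal. -/
theorem normal_of_hall {G : Type*} [Group G] [Finite G] (H : Subgroup G) (hHall : (Nat.card H).Coprime H.index)
    (hexp : ∀ x : G, x ^ H.index ∈ H) : H.Normal := by
  refine ⟨fun h hh g => ?_⟩
  apply mem_of_pow_mem _ (hexp _)
  have h1 : orderOf (g * h * g⁻¹) = orderOf h := by
    have := orderOf_injective (MulAut.conj g).toMonoidHom (MulAut.conj g).injective h
    simpa using this
  rw [h1]
  exact (hHall.coprime_dvd_left (Subgroup.orderOf_dvd_natCard H hh)).symm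

/-- In a finite nilpotent group all `[F : K]`-th powers are in `K`. -/
theorem pow_index_mem_of_nilpotent {F : Type*} [Group F] [Finite F] (hF : Group.IsNilpotent F) :
    ∀ (n : ℕ) (K : Subgroup F), K.index = n → ∀ y : F, y ^ n ∈ K := by
  intro n
  induction n using Nat.strong_induction_on with
  | _ n ih =>
    intro K hK y
    rcases eq_or_ne K ⊤ with h | h
    · rw [h]; trivial
    · have hnc : NormalizerCondition F := Group.normalizerCondition_of_isNilpotent
      have h1 : K < normalizer (K : Set F) := hnc K (lt_top_iff_ne_top.2 h)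
      have h2 : K.relIndex (normalizer (K : Set F)) * (normalizer (K : Set F)).index = K.index :=
        Subgroup.relIndex_mul_index h1.le
      have h3 : K.relIndex (normalizer (K : Set F)) ≠ 1 := by
        intro h4
        rw [Subgroup.relIndex_eq_one] at h4
        exact absurd h4 (not_le_of_gt h1)
      have h5 : (normalizer (K : Set F)).index ≠ 0 := Subgroup.index_ne_zero_of_finite
      have h6 : K.relIndex (normalizer (K : Set F)) ≠ 0 := by
        intro h7
        rw [h7, zero_mul] at h2
        exact Subgroup.index_ne_zero_of_finite h2.symm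
      have h8 : (normalizer (K : Set F)).index < n := by
        rw [← hK, ← h2]
        have : 2 ≤ K.relIndex (normalizer (K : Set F)) := by omega
        nlinarith [Nat.pos_of_ne_zero h5]
      have h9 := ih _ h8 (normalizer (K : Set F)) rfl y
      have hnorm : (K.subgroupOf (normalizer (K : Set F))).Normal := Subgroup.normal_in_normalizer
      have h10 := Subgroup.pow_index_mem (K.subgroupOf (normalizer (K : Set F))) ⟨_, h9⟩
      rw [Subgroup.mem_subgroupOf] at h10
      have h11 : (y ^ (normalizer (K : Set F)).index) ^ K.relIndex (normalizer (K : Set F)) ∈ K := h10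
      rw [← pow_mul, mul_comm, h2, hK] at h11
      exact h11

/-- **`F(G)` and powers.** -/
theorem mem_fitting_iff {G : Type*} [Group G] [Finite G] (x : G) :
    x ∈ Cfsg.fittingSubgroup G ↔ ∀ H : Subgroup G, x ^ H.index ∈ H := by
  constructor
  · intro hx H
    have h1 := pow_index_mem_of_nilpotent Cfsg.Agent.Lib.Cores.fittingSubgroup_isNilpotent _
      (H.subgroupOf (Cfsg.fittingSubgroup G)) rfl ⟨x, hx⟩
    rw [Subgroup.mem_subgroupOf] at h1
    have h2 : x ^ H.relIndex (Cfsg.fittingSubgroup G) ∈ H := h1
    have h3 : H.relIndex (Cfsg.fittingSubgroup G) ∣ H.index := by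
      rw [← Cfsg.Agent.Lib.SylowNormalInf.relIndex_sup_of_normal H (Cfsg.fittingSubgroup G)]
      exact Subgroup.relIndex_dvd_index_of_le le_sup_left
    obtain ⟨k, hk⟩ := h3
    rw [hk, pow_mul]
    exact H.pow_mem h2 k
  · intro h
    have key : (Cfsg.fittingSubgroup G).subgroupOf (Subgroup.zpowers x) = ⊤ := by
      apply Cfsg.Agent.Lib.Cores.eq_top_of_sylow_le
      intro p hp
      obtain ⟨Q⟩ : Nonempty (Sylow p (Subgroup.zpowers x)) := inferInstance
      refine ⟨Q, ?_⟩
      intro y hy
      rw [Subgroup.mem_subgroupOf]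
      apply Cfsg.Agent.Lib.Cores.pCore_le_fittingSubgroup p
      rw [Cfsg.Agent.Lib.Cores.pCore_eq_iInf_sylow, Subgroup.mem_iInf]
      intro P
      obtain ⟨k, hk⟩ := Subgroup.mem_zpowers_iff.1 y.2
      obtain ⟨j, hj⟩ := Q.isPGroup' ⟨y, hy⟩
      have hj' : (y : G) ^ p ^ j = 1 := by
        have := congrArg (fun z : (Q : Subgroup (Subgroup.zpowers x)) => ((z : Subgroup.zpowers x) : G)) hj
        simpa using this
      apply mem_of_pow_mem (n := (P : Subgroup G).index)
      · have h1 : orderOf (y : G) ∣ p ^ j := orderOf_dvd_of_pow_eq_one hj'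
        apply Nat.Coprime.coprime_dvd_right h1
        apply Nat.Coprime.pow_right
        rw [Nat.coprime_comm, hp.out.coprime_iff_not_dvd]
        exact P.not_dvd_index
      · rw [← hk, ← zpow_natCast, ← zpow_mul, mul_comm, zpow_mul, zpow_natCast]
        exact (P : Subgroup G).zpow_mem (h _) k
    have h1 : (⟨x, Subgroup.mem_zpowers x⟩ : Subgroup.zpowers x) ∈
        (Cfsg.fittingSubgroup G).subgroupOf (Subgroup.zpowers x) := by rw [key]; trivial
    exact h1

/-- A subgroup over `O^p(G)` which is maximal is normal. -/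
theorem normal_of_pResidual_le {G : Type*} [Group G] [Finite G] {p : ℕ} [Fact p.Prime] (M : Subgroup G)
    (hM : IsCoatom M) (h : Cfsg.pResidual p G ≤ M) (hn : (Cfsg.pResidual p G).Normal) : M.Normal := by
  have hq : IsPGroup p (G ⧸ Cfsg.pResidual p G) := Cfsg.Agent.Transfer.Residual.isPGroup_quotient_pResidual
  have hnil : Group.IsNilpotent (G ⧸ Cfsg.pResidual p G) := hq.isNilpotent
  have hnc : NormalizerCondition (G ⧸ Cfsg.pResidual p G) := Group.normalizerCondition_of_isNilpotent
  have hcm : (M.map (QuotientGroup.mk' (Cfsg.pResidual p G))).comap (QuotientGroup.mk' (Cfsg.pResidual p G)) = M := by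
    rw [Subgroup.comap_map_eq, QuotientGroup.ker_mk', sup_eq_left.2 h]
  have hmne : M.map (QuotientGroup.mk' (Cfsg.pResidual p G)) ≠ ⊤ := by
    intro h1
    rw [h1, Subgroup.comap_top] at hcm
    exact hM.1 hcm.symm
  have hco : IsCoatom (M.map (QuotientGroup.mk' (Cfsg.pResidual p G))) := by
    refine ⟨hmne, fun K hK => ?_⟩
    have h2 : M < K.comap (QuotientGroup.mk' (Cfsg.pResidual p G)) := by
      rw [← hcm]
      exact (Subgroup.comap_lt_comap_of_surjective (QuotientGroup.mk'_surjective _)).2 hK
    have h3 := hM.2 _ h2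
    have h4 := Subgroup.map_comap_eq_self_of_surjective (QuotientGroup.mk'_surjective (Cfsg.pResidual p G)) K
    rw [← h4, h3, ← MonoidHom.range_eq_map, MonoidHom.range_eq_top.2 (QuotientGroup.mk'_surjective _)]
  have hnm : (M.map (QuotientGroup.mk' (Cfsg.pResidual p G))).Normal := hnc.normal_of_coatom _ hco
  rw [← hcm]
  exact hnm.comap _

/-- A maximal subgroup `M` of a solvable group which contains all `[G : M]`-th powers is normal. -/
theorem normal_of_solvable {G : Type*} [Group G] [Finite G] (hG : Group.IsSolvable G) (M : Subgroup G)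
    (hM : IsCoatom M) (hexp : ∀ x : G, x ^ M.index ∈ M) : M.Normal := by
  obtain ⟨p, k, hp, hk, hpk⟩ := Cfsg.Agent.S0048.result M hM
  have hp' : Fact p.Prime := ⟨hp.nat_prime⟩
  have hn : (Cfsg.pResidual p G).Normal := Cfsg.Agent.Transfer.Residual.pResidual_normal p
  refine normal_of_pResidual_le (p := p) M hM ?_ hn
  unfold Cfsg.pResidual
  rw [Subgroup.closure_le]
  intro y hy
  apply mem_of_pow_mem _ (hexp y)
  rw [← hpk]
  apply Nat.Coprime.pow_left
  exact Nat.Coprime.symm hy

end Cfsg.Agent.H555.IndexPow
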