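/- helper555: chains of Sylow subgroups (S2939, S2956, S2957) -/
import Cfsg.Prelude.Def_SylowChains
import Mathlib.GroupTheory.Sylow
import Mathlib.GroupTheory.Nilpotent
import Mathlib.GroupTheory.PGroup
set_option linter.all false

set_option autoImplicit false

namespace Cfsg.Agent.H555.SylChain

open Subgroup Cfsg Relation

variable {G : Type*} [Group G]

/-! ### Right conjugation -/

theorem mem_cj {g : G} {X : Subgroup G} {y : G} :
    y ∈ subgroupConjRight g X ↔ g * y * g⁻¹ ∈ X := by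
  rw [subgroupConjRight]
  constructor
  · rintro ⟨x, hx, rfl⟩
    simpa [mul_assoc] using hx
  · intro h
    exact ⟨_, h, by simp [mul_assoc]⟩

theorem cj_cj (g h : G) (X : Subgroup G) :
    subgroupConjRight h (subgroupConjRight g X) = subgroupConjRight (g * h) X := by
  ext y
  simp only [mem_cj]
  rw [show g * (h * y * h⁻¹) * g⁻¹ = g * h * y * (g * h)⁻¹ by group]

theorem cj_one (X : Subgroup G) : subgroupConjRight (1 : G) X = X := by
  ext y
  simp [mem_cj]

theorem cj_inv_cj (g : G) (X : Subgroup G) :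
    subgroupConjRight g⁻¹ (subgroupConjRight g X) = X := by
  rw [cj_cj, mul_inv_cancel, cj_one]

theorem cj_cj_inv (g : G) (X : Subgroup G) :
    subgroupConjRight g (subgroupConjRight g⁻¹ X) = X := by
  rw [cj_cj, inv_mul_cancel, cj_one]

theorem cj_inf (g : G) (X Y : Subgroup G) :
    subgroupConjRight g (X ⊓ Y) = subgroupConjRight g X ⊓ subgroupConjRight g Y := by
  ext y
  simp only [mem_cj, Subgroup.mem_inf]

theorem cj_mono {g : G} {X Y : Subgroup G} (h : X ≤ Y) :
    subgroupConjRight g X ≤ subgroupConjRight g Y := Subgroup.map_mono h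

theorem cj_le_iff {g : G} {X Y : Subgroup G} :
    subgroupConjRight g X ≤ Y ↔ X ≤ subgroupConjRight g⁻¹ Y := by
  constructor
  · intro h
    rw [← cj_inv_cj g X]; exact cj_mono h
  · intro h
    have := cj_mono (g := g) h
    rwa [cj_cj_inv] at this

theorem cj_card (g : G) (X : Subgroup G) :
    Nat.card (subgroupConjRight g X) = Nat.card X :=
  Subgroup.card_map_of_injective (MulAut.conj g⁻¹).injective

theorem cj_top (g : G) : subgroupConjRight g (⊤ : Subgroup G) = ⊤ := by
  ext y; simp [mem_cj]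

theorem cj_bot (g : G) : subgroupConjRight g (⊥ : Subgroup G) = ⊥ := by
  ext y
  simp only [mem_cj, Subgroup.mem_bot]
  constructor
  · intro h
    have : y = g⁻¹ * (g * y * g⁻¹) * g := by group
    rw [this, h]; group
  · rintro rfl; simp

theorem cj_of_mem {g : G} {X : Subgroup G} (hg : g ∈ X) : subgroupConjRight g X = X := by
  ext y
  rw [mem_cj]
  constructor
  · intro h
    have : y = g⁻¹ * (g * y * g⁻¹) * g := by group
    rw [this]
    exact X.mul_mem (X.mul_mem (X.inv_mem hg) h) hg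
  · intro h
    exact X.mul_mem (X.mul_mem hg h) (X.inv_mem hg)

theorem cj_eq_iff_mem_normalizer {g : G} {X : Subgroup G} :
    subgroupConjRight g X = X ↔ g ∈ Subgroup.normalizer (X : Set G) := by
  rw [Subgroup.mem_normalizer_iff]
  constructor
  · intro h y
    have := congrArg (fun Z : Subgroup G => y ∈ Z) h
    simp only [mem_cj, eq_iff_iff] at this
    exact this.symm
  · intro h
    ext y
    rw [mem_cj]
    exact (h y).symm

theorem cj_normalizer (g : G) (X : Subgroup G) :
    subgroupConjRight g (Subgroup.normalizer (X : Set G))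
      = Subgroup.normalizer (subgroupConjRight g X : Set G) := by
  ext y
  rw [mem_cj, ← cj_eq_iff_mem_normalizer, ← cj_eq_iff_mem_normalizer]
  rw [cj_cj]
  constructor
  · intro h
    have := congrArg (subgroupConjRight g) h
    rw [cj_cj] at this
    rw [← this]
    congr 1; group
  · intro h
    have := congrArg (subgroupConjRight g⁻¹) h
    rwa [cj_cj, cj_inv_cj] at this

/-! ### Sylow subgroups of subgroups -/

/-- `P` is a Sylow `p`-subgroup of `M` -/
def IsSyl (p : ℕ) (M P : Subgroup G) : Prop := ∃ P' : Sylow p ↥M, (P' : Subgroup ↥M).map M.subtype = P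

theorem isSyl_iff [Finite G] {p : ℕ} [Fact p.Prime] {M P : Subgroup G} :
    IsSyl p M P ↔ P ≤ M ∧ Nat.card P = p ^ (Nat.card M).factorization p := by
  constructor
  · rintro ⟨P', rfl⟩
    refine ⟨?_, ?_⟩
    · rintro _ ⟨x, _, rfl⟩; exact x.2
    · rw [Subgroup.card_map_of_injective M.subtype_injective]
      exact P'.card_eq_multiplicity
  · rintro ⟨h1, h2⟩
    have h3 : Nat.card (P.subgroupOf M) = p ^ (Nat.card M).factorization p := by
      rw [Nat.card_congr (Subgroup.subgroupOfEquivOfLe h1).toEquiv, h2]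
    refine ⟨Sylow.ofCard (P.subgroupOf M) h3, ?_⟩
    rw [Sylow.coe_ofCard]
    rw [Subgroup.subgroupOf_map_subtype]
    exact inf_eq_left.mpr h1

theorem IsSyl.le {p : ℕ} {M P : Subgroup G} (h : IsSyl p M P) : P ≤ M := by
  obtain ⟨P', rfl⟩ := h
  rintro _ ⟨x, _, rfl⟩; exact x.2

theorem IsSyl.isPGroup {p : ℕ} {M P : Subgroup G} (h : IsSyl p M P) : IsPGroup p P := by
  obtain ⟨P', rfl⟩ := h
  exact P'.isPGroup'.map _

section
set_option linter.unusedSectionVars false
variable [Finite G] {p : ℕ} [hp : Fact p.Prime]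

theorem IsSyl.card {M P : Subgroup G} (h : IsSyl p M P) :
    Nat.card P = p ^ (Nat.card M).factorization p := (isSyl_iff.mp h).2

theorem IsSyl.card_eq {M P Q : Subgroup G} (h : IsSyl p M P) (h' : IsSyl p M Q) :
    Nat.card P = Nat.card Q := by rw [h.card, h'.card]

theorem card_le_of_isPGroup {M Q : Subgroup G} (hQ : IsPGroup p Q) (hQM : Q ≤ M) :
    Nat.card Q ≤ p ^ (Nat.card M).factorization p := by
  obtain ⟨n, hn⟩ := IsPGroup.iff_card.mp hQ
  rw [hn]
  apply Nat.pow_le_pow_right hp.out.pos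
  rw [← hp.out.pow_dvd_iff_le_factorization Nat.card_pos.ne', ← hn]
  exact Subgroup.card_dvd_of_le hQM

theorem exists_isSyl {M Q : Subgroup G} (hQ : IsPGroup p Q) (hQM : Q ≤ M) :
    ∃ P, IsSyl p M P ∧ Q ≤ P := by
  have h1 : IsPGroup p (Q.subgroupOf M) := hQ.comap_of_injective M.subtype M.subtype_injective
  obtain ⟨P, hP⟩ := h1.exists_le_sylow
  refine ⟨_, ⟨P, rfl⟩, ?_⟩
  intro x hx
  exact ⟨⟨x, hQM hx⟩, hP hx, rfl⟩

theorem IsSyl.eq_of_le {M P Q : Subgroup G} (h : IsSyl p M P) (hQ : IsPGroup p Q) (hQM : Q ≤ M)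
    (hPQ : P ≤ Q) : P = Q := by
  apply Subgroup.eq_of_le_of_card_ge hPQ
  rw [h.card]
  exact card_le_of_isPGroup hQ hQM

theorem isSyl_of_card {M P : Subgroup G} (h1 : P ≤ M)
    (h2 : Nat.card P = p ^ (Nat.card M).factorization p) : IsSyl p M P := isSyl_iff.mpr ⟨h1, h2⟩

theorem IsSyl.of_le {M N P : Subgroup G} (h : IsSyl p M P) (h1 : P ≤ N) (h2 : N ≤ M) :
    IsSyl p N P := by
  apply isSyl_of_card h1
  apply le_antisymm
  · exact card_le_of_isPGroup h.isPGroup h1
  · rw [h.card]
    apply Nat.pow_le_pow_right hp.out.pos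
    exact (Nat.factorization_le_iff_dvd Nat.card_pos.ne' Nat.card_pos.ne').mpr
      (Subgroup.card_dvd_of_le h2) p

theorem IsSyl.cj {M P : Subgroup G} (h : IsSyl p M P) (g : G) :
    IsSyl p (subgroupConjRight g M) (subgroupConjRight g P) := by
  apply isSyl_of_card (cj_mono h.le)
  rw [cj_card, cj_card, h.card]

theorem IsSyl.conj {M P Q : Subgroup G} (h : IsSyl p M P) (h' : IsSyl p M Q) :
    ∃ m ∈ M, subgroupConjRight m Q = P := by
  obtain ⟨P', hP⟩ := h
  obtain ⟨Q', hQ⟩ := h'
  obtain ⟨m, hm⟩ := MulAction.exists_smul_eq M Q' P'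
  refine ⟨(m : G)⁻¹, M.inv_mem m.2, ?_⟩
  rw [← hP, ← hQ, ← hm]
  ext y
  rw [mem_cj]
  constructor
  · rintro ⟨x, hx, hxy⟩
    refine ⟨m * x * m⁻¹, ?_, ?_⟩
    · exact ⟨x, hx, rfl⟩
    · have hxy' : (x : G) = (m : G)⁻¹ * y * (m : G)⁻¹⁻¹ := hxy
      simp [hxy']
      group
  · rintro ⟨x, ⟨z, hz, hzx⟩, hxy⟩
    refine ⟨z, hz, ?_⟩
    have h1 : m * z * m⁻¹ = x := hzx
    have h2 : (x : G) = y := hxy
    rw [← h2, ← h1]
    simp
    group

/-- if `P` is Sylow in `⊤` then it is the underlying group of a Sylow subgroup -/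
theorem isSyl_top_iff {P : Subgroup G} : IsSyl p ⊤ P ↔ ∃ S : Sylow p G, (S : Subgroup G) = P := by
  rw [isSyl_iff]
  constructor
  · rintro ⟨_, h2⟩
    have h3 : Nat.card P = p ^ (Nat.card G).factorization p := by
      rw [h2, Subgroup.card_top]
    exact ⟨Sylow.ofCard P h3, rfl⟩
  · rintro ⟨S, rfl⟩
    refine ⟨le_top, ?_⟩
    rw [S.card_eq_multiplicity, Subgroup.card_top]

theorem exists_sylow_ge {Q : Subgroup G} (hQ : IsPGroup p Q) : ∃ P, IsSyl p ⊤ P ∧ Q ≤ P :=
  exists_isSyl hQ le_top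

/-- Sylow subgroup of `M` and Sylow subgroup of `G` containing it -/
theorem IsSyl.inf_eq {M P P' : Subgroup G} (h : IsSyl p M P) (h' : IsSyl p ⊤ P') (hP : P ≤ P') :
    P' ⊓ M = P := by
  symm
  apply h.eq_of_le (h'.isPGroup.to_le inf_le_left) inf_le_right
  exact le_inf hP h.le

/-! ### Links -/

/-- a link of a chain for the family `𝓕` -/
def Link (p : ℕ) (𝓕 : Set (Subgroup G)) (D S T : Subgroup G) : Prop :=
  IsSyl p ⊤ S ∧ IsSyl p ⊤ T ∧ ∃ X ∈ 𝓕, IsSyl p X (S ⊓ X) ∧ IsSyl p X (T ⊓ X) ∧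
    (∃ x ∈ X, subgroupConjRight x T = S) ∧ D ≤ S ⊓ T ⊓ X

theorem Link.mono {𝓕 : Set (Subgroup G)} {D D' S T : Subgroup G} (h : Link p 𝓕 D S T)
    (hD : D' ≤ D) : Link p 𝓕 D' S T := by
  obtain ⟨h1, h2, X, hX, h3, h4, h5, h6⟩ := h
  exact ⟨h1, h2, X, hX, h3, h4, h5, hD.trans h6⟩

theorem rtg_mono {𝓕 : Set (Subgroup G)} {D D' S T : Subgroup G}
    (h : ReflTransGen (Link p 𝓕 D) S T) (hD : D' ≤ D) : ReflTransGen (Link p 𝓕 D') S T := by
  induction h with
  | refl => exact .refl
  | tail _ h2 ih => exact ih.tail (Link.mono h2 hD)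

/-- from a `Fin`-chain to `ReflTransGen` -/
theorem rtg_of_fin {α : Type*} {r : α → α → Prop} (n : ℕ) (c : Fin (n + 1) → α)
    (h : ∀ i : Fin n, r (c i.castSucc) (c i.succ)) : ReflTransGen r (c 0) (c (Fin.last n)) := by
  have : ∀ i : Fin (n + 1), ReflTransGen r (c 0) (c i) := by
    intro i
    induction i using Fin.induction with
    | zero => exact .refl
    | succ i ih => exact ih.tail (h i)
  exact this _

/-- from `ReflTransGen` to a `Fin`-chain -/
theorem fin_of_rtg {α : Type*} {r : α → α → Prop} {a b : α} (h : ReflTransGen r a b) :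
    ∃ (n : ℕ) (c : Fin (n + 1) → α), c 0 = a ∧ c (Fin.last n) = b ∧
      ∀ i : Fin n, r (c i.castSucc) (c i.succ) := by
  induction h with
  | refl => exact ⟨0, fun _ => a, rfl, rfl, fun i => i.elim0⟩
  | @tail b d hab hbd ih =>
    obtain ⟨n, c, h0, h1, h2⟩ := ih
    refine ⟨n + 1, Fin.snoc (α := fun _ => α) c d, ?_, ?_, ?_⟩
    · have : (0 : Fin (n + 1 + 1)) = Fin.castSucc 0 := rfl
      rw [this, Fin.snoc_castSucc]; exact h0
    · rw [Fin.snoc_last]
    · intro i
      rw [Fin.snoc_castSucc]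
      induction i using Fin.lastCases with
      | last =>
        rw [h1]
        have : (Fin.last n).succ = Fin.last (n + 1) := rfl
        rw [this, Fin.snoc_last]; exact hbd
      | cast i =>
        have : (i.castSucc).succ = i.succ.castSucc := rfl
        rw [this, Fin.snoc_castSucc]; exact h2 i

theorem controls_iff {𝓕 : Set (Subgroup G)} : ControlsSylowIntersections p 𝓕 ↔
    ∀ S T : Subgroup G, IsSyl p ⊤ S → IsSyl p ⊤ T → S ≠ T → S ⊓ T ≠ ⊥ →
      ReflTransGen (Link p 𝓕 (S ⊓ T)) S T := by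
  constructor
  · intro h S T hS hT hST hD
    obtain ⟨S, rfl⟩ := isSyl_top_iff.mp hS
    obtain ⟨T, rfl⟩ := isSyl_top_iff.mp hT
    obtain ⟨n, c, X, x, h0, h1, h2⟩ := h S T (fun h => hST (by rw [h])) hD
    have hle : ∀ i, (S : Subgroup G) ⊓ T ≤ (c i : Subgroup G) := by
      intro i
      induction i using Fin.cases with
      | zero => rw [h0]; exact inf_le_left
      | succ i => exact (h2 i).2.2.2.2.trans inf_le_left
    have := rtg_of_fin (r := Link p 𝓕 ((S : Subgroup G) ⊓ T)) n (fun i => (c i : Subgroup G)) (by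
      intro i
      obtain ⟨h3, h4, h5, h6, h7⟩ := h2 i
      exact ⟨isSyl_top_iff.mpr ⟨_, rfl⟩, isSyl_top_iff.mpr ⟨_, rfl⟩, X i, h3.1, h3.2, h4.2,
        ⟨x i, h5, h6⟩, le_inf (le_inf (hle _) (hle _)) (h7.trans inf_le_right)⟩)
    simp only [h0, h1] at this
    exact this
  · intro h S T hST hD
    have h1 := h S T (isSyl_top_iff.mpr ⟨_, rfl⟩) (isSyl_top_iff.mpr ⟨_, rfl⟩)
      (fun h => hST (Sylow.ext h)) hD
    obtain ⟨n, c, h0, h2, h3⟩ := fin_of_rtg h1
    have hc : ∀ i, IsSyl p ⊤ (c i) := by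
      intro i
      induction i using Fin.cases with
      | zero => rw [h0]; exact isSyl_top_iff.mpr ⟨_, rfl⟩
      | succ i => exact (h3 i).2.1
    choose c' hc' using fun i => isSyl_top_iff.mp (hc i)
    choose X hX1 hX2 hX3 hx hX4 using fun i => (h3 i).2.2
    choose x hx1 hx2 using hx
    refine ⟨n, c', X, x, ?_, ?_, fun i => ⟨⟨hX1 i, ?_⟩, ⟨hX1 i, ?_⟩, hx1 i, ?_, ?_⟩⟩
    · apply Sylow.ext
      rw [hc', h0]
    · apply Sylow.ext
      rw [hc', h2]
    · rw [hc']; exact hX2 i
    · rw [hc']; exact hX3 i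
    · rw [hc', hc']; exact hx2 i
    · rw [hc']
      exact (hX4 i).trans (le_inf (inf_le_left.trans inf_le_right) inf_le_right)


/-! ### S2939 -/

/-- the data of strong control of fusion, as lists -/
theorem exists_list {𝓕 : Set (Subgroup G)} (h𝓕 : IsNormalSet 𝓕) {D S T : Subgroup G}
    (h : ReflTransGen (Link p 𝓕 D) S T) :
    ∃ l : List (Subgroup G × G),
      (∀ z ∈ l, z.1 ∈ 𝓕 ∧ IsSyl p z.1 (S ⊓ z.1) ∧ z.2 ∈ z.1) ∧
      subgroupConjRight (l.map Prod.snd).prod T = S ∧
      ∀ i : Fin l.length, subgroupConjRight (((l.map Prod.snd).take (i.val + 1)).prod) D ≤ S ⊓ (l.get i).1 := by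
  induction h with
  | refl => exact ⟨[], by simp, by simp [cj_one], fun i => i.elim0⟩
  | @tail T' T _ hlink ih =>
    obtain ⟨l, hl1, hl2, hl3⟩ := ih
    obtain ⟨hT', hT, X, hX, hX1, hX2, ⟨x, hx, hxT⟩, hD⟩ := hlink
    set h := (l.map Prod.snd).prod with hh
    have e1 : ((l ++ [(subgroupConjRight h X, h⁻¹ * x * h)]).map Prod.snd).prod = x * h := by
      rw [List.map_append, List.prod_append, ← hh]
      simp [mul_assoc]
    have hSX : S ⊓ subgroupConjRight h X = subgroupConjRight h (T' ⊓ X) := by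
      rw [cj_inf, hl2]
    refine ⟨l ++ [(subgroupConjRight h X, h⁻¹ * x * h)], ?_, ?_, ?_⟩
    · intro z hz
      rcases List.mem_append.mp hz with hz | hz
      · exact hl1 z hz
      · rw [List.mem_singleton] at hz
        subst hz
        refine ⟨h𝓕 X hX h, ?_, ?_⟩
        · rw [hSX]; exact hX1.cj h
        · rw [mem_cj]
          have : h * (h⁻¹ * x * h) * h⁻¹ = x := by group
          rw [this]; exact hx
    · rw [e1, ← cj_cj, hxT, hl2]
    · intro i
      have hlen : (l ++ [(subgroupConjRight h X, h⁻¹ * x * h)]).length = l.length + 1 := by simp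
      by_cases hi : i.val < l.length
      · have h5 := hl3 ⟨i.val, hi⟩
        rw [List.get_eq_getElem, List.getElem_append_left hi]
        rw [List.map_append, List.take_append_of_le_length (by simpa using hi)]
        exact h5
      · have hi' : i.val = l.length := by have := i.2; omega
        have e2 : ((l ++ [(subgroupConjRight h X, h⁻¹ * x * h)]).map Prod.snd).take (i.val + 1)
            = (l ++ [(subgroupConjRight h X, h⁻¹ * x * h)]).map Prod.snd := by
          apply List.take_of_length_le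
          simp [hi']
        have e3 : (l ++ [(subgroupConjRight h X, h⁻¹ * x * h)]).get i
            = (subgroupConjRight h X, h⁻¹ * x * h) := by
          rw [List.get_eq_getElem]
          simp [hi']
        rw [e2, e1, e3]
        have h6 : subgroupConjRight (x * h) D ≤ subgroupConjRight (x * h) (T ⊓ X) :=
          cj_mono (hD.trans (le_inf (inf_le_left.trans inf_le_right) inf_le_right))
        refine h6.trans ?_
        rw [cj_inf, ← cj_cj, ← cj_cj, hxT, hl2, cj_of_mem hx]

theorem conjRight_subset_iff {g : G} {A B : Set G} :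
    conjRight g A ⊆ B ↔ ∀ a ∈ A, g⁻¹ * a * g ∈ B := by
  rw [conjRight, Set.image_subset_iff]; rfl

theorem strong_of_controls {𝓕 : Set (Subgroup G)} (h𝓕 : IsNormalSet 𝓕)
    (h : ControlsSylowIntersections p 𝓕) : FamilyStronglyControlsFusion p 𝓕 := by
  rw [controls_iff] at h
  intro S A g hA hA1 hAg
  obtain ⟨a, ha, ha1⟩ := hA1
  have hS : IsSyl p ⊤ (S : Subgroup G) := isSyl_top_iff.mpr ⟨_, rfl⟩
  have hT : IsSyl p ⊤ (subgroupConjRight g⁻¹ (S : Subgroup G)) := by
    have := hS.cj g⁻¹; rwa [cj_top] at this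
  set T := subgroupConjRight g⁻¹ (S : Subgroup G) with hTdef
  have hAT : ∀ a ∈ A, a ∈ T := by
    intro a ha
    rw [hTdef, mem_cj, inv_inv]
    exact hAg ⟨a, ha, rfl⟩
  by_cases hST : (S : Subgroup G) = T
  · refine ⟨0, fun i => i.elim0, fun i => i.elim0, g, ?_, fun i => i.elim0, by simp,
      fun i => i.elim0⟩
    have h1 := (cj_eq_iff_mem_normalizer (g := g⁻¹) (X := (S : Subgroup G))).mp (by
      rw [← hTdef, ← hST])
    simpa using Subgroup.inv_mem _ h1
  · have hne : (S : Subgroup G) ⊓ T ≠ ⊥ := by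
      intro hbot
      have : a ∈ (S : Subgroup G) ⊓ T := ⟨hA ha, hAT a ha⟩
      rw [hbot] at this
      exact ha1 (Subgroup.mem_bot.mp this)
    obtain ⟨l, hl1, hl2, hl3⟩ := exists_list h𝓕 (h _ T hS hT hST hne)
    have e1 : List.ofFn (fun i => (l.get i).2) = l.map Prod.snd := by
      apply List.ext_getElem
      · simp
      · intro i h1 h2
        simp
    refine ⟨l.length, fun i => (l.get i).1, fun i => (l.get i).2,
      ((l.map Prod.snd).prod)⁻¹ * g, ?_, ?_, ?_, ?_⟩
    · rw [← cj_eq_iff_mem_normalizer]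
      have h3 : (S : Subgroup G) = subgroupConjRight (g⁻¹ * (l.map Prod.snd).prod) (S : Subgroup G) := by
        rw [← cj_cj, ← hTdef, hl2]
      have h4 : subgroupConjRight (((l.map Prod.snd).prod)⁻¹ * g)
          (subgroupConjRight (g⁻¹ * (l.map Prod.snd).prod) (S : Subgroup G)) = S := by
        rw [cj_cj, show g⁻¹ * (l.map Prod.snd).prod * (((l.map Prod.snd).prod)⁻¹ * g) = 1 by group,
          cj_one]
      rwa [← h3] at h4
    · intro i
      obtain ⟨h3, h4, h5⟩ := hl1 (l.get i) (List.get_mem _ _)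
      exact ⟨⟨h3, h4⟩, h5⟩
    · rw [e1]; group
    · intro i
      rw [e1, conjRight_subset_iff]
      intro b hb
      have h6 : ((((l.map Prod.snd).take (i.val + 1)).prod)⁻¹ * b *
          (((l.map Prod.snd).take (i.val + 1)).prod)) ∈ subgroupConjRight
            (((l.map Prod.snd).take (i.val + 1)).prod) ((S : Subgroup G) ⊓ T) := by
        rw [mem_cj]
        have : ∀ u : G, u * (u⁻¹ * b * u) * u⁻¹ = b := fun u => by group
        rw [this]
        exact ⟨hA hb, hAT b hb⟩
      exact hl3 i h6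

theorem controls_of_strong {𝓕 : Set (Subgroup G)} (h𝓕 : IsNormalSet 𝓕)
    (h : FamilyStronglyControlsFusion p 𝓕) : ControlsSylowIntersections p 𝓕 := by
  rw [controls_iff]
  intro S' T hS hT hST hD
  obtain ⟨S, rfl⟩ := isSyl_top_iff.mp hS
  obtain ⟨g, _, hg⟩ := hS.conj hT
  obtain ⟨a, ha1⟩ := (Subgroup.ne_bot_iff_exists_ne_one).mp hD
  have haD := a.2
  have ha1' : (a : G) ≠ 1 := fun h => ha1 (Subtype.ext h)
  obtain ⟨n, Y, y, y₀, hy₀, hY, hgy, hA⟩ := h S (((S : Subgroup G) ⊓ T : Subgroup G) : Set G) g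
    (fun x hx => hx.1) ⟨a, haD, ha1'⟩ (by
      rw [conjRight_subset_iff]
      rintro x ⟨_, hx⟩
      have : x ∈ T := hx
      have h5 : g⁻¹ * x * g ∈ subgroupConjRight g T := by
        rw [mem_cj, show g * (g⁻¹ * x * g) * g⁻¹ = x by group]
        exact this
      rw [hg] at h5
      exact h5)
  set D : Subgroup G := (S : Subgroup G) ⊓ T with hDdef
  let L := List.ofFn y
  have hstep : ∀ i : Fin n, (L.take (i.val + 1)).prod = (L.take i.val).prod * y i := by
    intro i
    have hi : i.val < L.length := by simp [L]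
    rw [List.prod_take_succ L i.val hi]
    simp [L]
  let c : Fin (n + 1) → Subgroup G := fun i => subgroupConjRight ((L.take i.val).prod)⁻¹ (S : Subgroup G)
  have hc0 : c 0 = S := by
    simp only [c]
    simp [cj_one]
  have hcn : c (Fin.last n) = T := by
    simp only [c, Fin.val_last]
    have h1 : L.take n = L := List.take_of_length_le (by simp [L])
    rw [h1]
    have h2 : subgroupConjRight g T = S := hg
    have h3 : T = subgroupConjRight g⁻¹ (S : Subgroup G) := by rw [← h2, cj_inv_cj]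
    rw [h3, hgy, mul_inv_rev, ← cj_cj]
    congr 1
    exact (cj_eq_iff_mem_normalizer.mpr (Subgroup.inv_mem _ hy₀)).symm
  have key := rtg_of_fin (r := Link p 𝓕 D) n c (by
    intro i
    have hSi : ∀ u : G, IsSyl p ⊤ (subgroupConjRight u (S : Subgroup G)) := by
      intro u
      have := hS.cj u; rwa [cj_top] at this
    obtain ⟨⟨hY1, hY2⟩, hy⟩ := hY i
    set k := (L.take i.val).prod with hk
    have hk1 : (L.take (i.val + 1)).prod = k * y i := hstep i
    have hX : subgroupConjRight (k * y i)⁻¹ (Y i) = subgroupConjRight k⁻¹ (Y i) := by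
      rw [mul_inv_rev, ← cj_cj, cj_of_mem ((Y i).inv_mem hy)]
    have hDi : D ≤ subgroupConjRight (k * y i)⁻¹ ((S : Subgroup G) ⊓ Y i) := by
      intro x hx
      rw [mem_cj]
      have h6 := hA i ⟨x, hx, rfl⟩
      have h7 : (List.take (i.val + 1) (List.ofFn y)).prod = k * y i := hk1
      rw [h7] at h6
      rw [inv_inv]
      exact h6
    have hci : c i.castSucc = subgroupConjRight k⁻¹ (S : Subgroup G) := rfl
    have hci' : c i.succ = subgroupConjRight (k * y i)⁻¹ (S : Subgroup G) := by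
      simp only [c, Fin.val_succ]
      rw [hk1]
    rw [hci, hci']
    refine ⟨hSi _, hSi _, subgroupConjRight k⁻¹ (Y i), h𝓕 _ hY1 _, ?_, ?_, ⟨k * y i * k⁻¹, ?_, ?_⟩, ?_⟩
    · rw [← cj_inf]; exact IsSyl.cj hY2 _
    · rw [← hX, ← cj_inf]; exact IsSyl.cj hY2 _
    · rw [mem_cj, show k⁻¹ * (k * y i * k⁻¹) * k⁻¹⁻¹ = y i by group]; exact hy
    · rw [cj_cj]; congr 1; group
    · rw [le_inf_iff, le_inf_iff]
      rw [cj_inf] at hDi
      refine ⟨⟨?_, hDi.trans inf_le_left⟩, ?_⟩
      · -- D ≤ S^{k⁻¹}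
        rcases Nat.eq_zero_or_pos i.val with h0 | h0
        · have : k = 1 := by rw [hk, h0]; simp
          rw [this, inv_one, cj_one]; exact inf_le_left
        · have hj : i.val - 1 < n := by have := i.2; omega
          intro x hx
          rw [mem_cj]
          have h6 := hA ⟨i.val - 1, hj⟩ ⟨x, hx, rfl⟩
          have h7 : (List.take ((⟨i.val - 1, hj⟩ : Fin n).val + 1) (List.ofFn y)).prod = k := by
            rw [hk]
            congr 2
            simp only
            omega
          rw [h7] at h6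
          rw [inv_inv]
          exact h6.1
      · rw [← hX]; exact hDi.trans inf_le_right)
  rw [hc0, hcn] at key
  exact key

end

end Cfsg.Agent.H555.SylChain
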