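/- helper555: functor families and chains of Sylow subgroups (S2956, S2957) -/
import Cfsg.Agent.H555.SylChain
set_option linter.all false

set_option autoImplicit false

namespace Cfsg.Agent.H555.SylChain

open Subgroup Cfsg Relation

variable {G : Type*} [Group G]

section
set_option linter.unusedSectionVars false
variable [Finite G] {p : ℕ} [hp : Fact p.Prime]

/-- a link inside `M` -/
def LinkM (p : ℕ) (f : Subgroup G → Set (Subgroup G)) (M D P Q : Subgroup G) : Prop :=
  IsSyl p M P ∧ IsSyl p M Q ∧ ∃ R F : Subgroup G, IsSyl p M R ∧ F ∈ f R ∧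
    P ≤ Subgroup.normalizer (F : Set G) ∧ Q ≤ Subgroup.normalizer (F : Set G) ∧
    (∃ x ∈ M, x ∈ Subgroup.normalizer (F : Set G) ∧ subgroupConjRight x Q = P) ∧ D ≤ P ⊓ Q

def RegularM (p : ℕ) (f : Subgroup G → Set (Subgroup G)) (M : Subgroup G) : Prop :=
  ∀ P Q, IsSyl p M P → IsSyl p M Q → P ≠ Q → P ⊓ Q ≠ ⊥ → ReflTransGen (LinkM p f M (P ⊓ Q)) P Q

theorem LinkM.mono {f : Subgroup G → Set (Subgroup G)} {M D D' P Q : Subgroup G}
    (h : LinkM p f M D P Q) (hD : D' ≤ D) : LinkM p f M D' P Q := by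
  obtain ⟨h1, h2, R, F, h3, h4, h5, h6, h7, h8⟩ := h
  exact ⟨h1, h2, R, F, h3, h4, h5, h6, h7, hD.trans h8⟩

theorem rtgM_mono {f : Subgroup G → Set (Subgroup G)} {M D D' P Q : Subgroup G}
    (h : ReflTransGen (LinkM p f M D) P Q) (hD : D' ≤ D) :
    ReflTransGen (LinkM p f M D') P Q := by
  induction h with
  | refl => exact .refl
  | tail _ h2 ih => exact ih.tail (LinkM.mono h2 hD)

/-- transport of the Sylow condition between `↥M` and `G` -/
theorem isSyl_map {M : Subgroup G} {X P : Subgroup ↥M} :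
    IsSyl p X P ↔ IsSyl p (X.map M.subtype) (P.map M.subtype) := by
  rw [isSyl_iff, isSyl_iff, Subgroup.card_map_of_injective M.subtype_injective,
    Subgroup.card_map_of_injective M.subtype_injective,
    Subgroup.map_le_map_iff_of_injective M.subtype_injective]

theorem isSyl_top_map {M : Subgroup G} {P : Subgroup ↥M} :
    IsSyl p (⊤ : Subgroup ↥M) P ↔ IsSyl p M (P.map M.subtype) := by
  rw [isSyl_map]
  have : (⊤ : Subgroup ↥M).map M.subtype = M := by
    rw [← MonoidHom.range_eq_map, Subgroup.range_subtype]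
  rw [this]

theorem map_cj {M : Subgroup G} (x : M) (T : Subgroup ↥M) :
    (subgroupConjRight x T).map M.subtype = subgroupConjRight (x : G) (T.map M.subtype) := by
  ext y
  rw [mem_cj]
  constructor
  · rintro ⟨z, hz, rfl⟩
    have hz' := mem_cj.mp hz
    exact ⟨_, hz', by simp⟩
  · rintro ⟨z, hz, hzy⟩
    have hz2 : (z : G) = x * y * (x : G)⁻¹ := hzy
    have hy : y = (x : G)⁻¹ * z * x := by rw [hz2]; group
    refine ⟨x⁻¹ * z * x, ?_, ?_⟩
    · change x⁻¹ * z * x ∈ subgroupConjRight x T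
      rw [mem_cj, show x * (x⁻¹ * z * x) * x⁻¹ = z by group]; exact hz
    · rw [hy]; simp

theorem normalizer_le_of_mem {f : Subgroup G → Set (Subgroup G)} (hf : IsNormalizerFunctor p f)
    {R F : Subgroup G} (hR : IsPGroup p R) (hF : F ∈ f R) :
    Subgroup.normalizer (R : Set G) ≤ Subgroup.normalizer (F : Set G) := ((hf R hR).1 F hF).2

/-- a member `M ∩ N(F)` of the functor family contains every Sylow subgroup `P` of `M` with `P ∩ X` Sylow in `X`. -/
theorem le_of_isSyl_inf {f : Subgroup G → Set (Subgroup G)} (hf : IsNormalizerFunctor p f)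
    {M R F P : Subgroup G} (hR : IsSyl p M R) (hF : F ∈ f R) (hP : IsSyl p M P)
    (h : IsSyl p (M ⊓ Subgroup.normalizer (F : Set G)) (P ⊓ (M ⊓ Subgroup.normalizer (F : Set G)))) :
    P ≤ Subgroup.normalizer (F : Set G) := by
  have h1 : R ≤ M ⊓ Subgroup.normalizer (F : Set G) :=
    le_inf hR.le (Subgroup.le_normalizer.trans (normalizer_le_of_mem hf hR.isPGroup hF))
  have h2 : IsSyl p (M ⊓ Subgroup.normalizer (F : Set G)) R := hR.of_le h1 inf_le_left
  have h3 := h.card_eq h2
  have h4 : P ⊓ (M ⊓ Subgroup.normalizer (F : Set G)) = P := by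
    apply Subgroup.eq_of_le_of_card_ge inf_le_left
    rw [h3, hR.card_eq hP]
  rw [← h4]
  exact inf_le_right.trans inf_le_right

theorem key_link {f : Subgroup G → Set (Subgroup G)} (hf : IsNormalizerFunctor p f)
    {M : Subgroup G} (D S T : Subgroup ↥M) : Link p ((fun X : Subgroup G => X.subgroupOf M) ''
      functorFamily p f M) D S T ↔ LinkM p f M (D.map M.subtype) (S.map M.subtype)
        (T.map M.subtype) := by
  constructor
  · rintro ⟨hS, hT, X', ⟨X, ⟨R, F, hF, hX⟩, rfl⟩, h1, h2, ⟨x, hx, hxT⟩, hD⟩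
    have hXM : X ≤ M := by rw [hX]; exact inf_le_left
    have hX'' : (X.subgroupOf M).map M.subtype = X := by
      rw [Subgroup.subgroupOf_map_subtype, inf_eq_left.mpr hXM]
    simp only at h1 h2 hx hD
    have hR : IsSyl p M ((R : Subgroup ↥M).map M.subtype) := ⟨R, rfl⟩
    rw [isSyl_top_map] at hS hT
    rw [isSyl_map, Subgroup.map_inf _ _ _ M.subtype_injective, hX'', hX] at h1 h2
    refine ⟨hS, hT, _, F, hR, hF, le_of_isSyl_inf hf hR hF hS h1, le_of_isSyl_inf hf hR hF hT h2,
      ⟨x, x.2, ?_, ?_⟩, ?_⟩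
    · have : (x : G) ∈ X := hx
      rw [hX] at this
      exact this.2
    · rw [← map_cj, hxT]
    · rw [← Subgroup.map_inf _ _ _ M.subtype_injective]
      exact Subgroup.map_mono (hD.trans inf_le_left)
  · rintro ⟨hS, hT, R, F, hR, hF, h1, h2, ⟨x, hxM, hxN, hxT⟩, hD⟩
    obtain ⟨R', hR'⟩ := hR
    set X := M ⊓ Subgroup.normalizer (F : Set G) with hX
    have hXM : X ≤ M := inf_le_left
    have hX'' : (X.subgroupOf M).map M.subtype = X := by
      rw [Subgroup.subgroupOf_map_subtype, inf_eq_left.mpr hXM]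
    have hPX : ∀ P : Subgroup ↥M, IsSyl p M (P.map M.subtype) →
        P.map M.subtype ≤ Subgroup.normalizer (F : Set G) →
        P ≤ X.subgroupOf M ∧ IsSyl p (X.subgroupOf M) (P ⊓ X.subgroupOf M) := by
      intro P hP hle
      have h3 : P.map M.subtype ≤ X := le_inf hP.le hle
      have h4 : P ≤ X.subgroupOf M := by
        intro z hz
        exact h3 ⟨z, hz, rfl⟩
      refine ⟨h4, ?_⟩
      rw [inf_eq_left.mpr h4, isSyl_map, hX'']
      exact hP.of_le h3 inf_le_left
    refine ⟨isSyl_top_map.mpr hS, isSyl_top_map.mpr hT, X.subgroupOf M, ⟨X, ⟨R', F, ?_, hX⟩, rfl⟩,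
      (hPX S hS h1).2, (hPX T hT h2).2, ⟨⟨x, hxM⟩, ⟨hxM, hxN⟩, ?_⟩, ?_⟩
    · rw [hR']; exact hF
    · apply Subgroup.map_injective M.subtype_injective
      rw [map_cj]
      exact hxT
    · rw [← Subgroup.map_inf _ _ _ M.subtype_injective,
        Subgroup.map_le_map_iff_of_injective M.subtype_injective] at hD
      refine le_inf hD (hD.trans ?_)
      exact inf_le_left.trans (hPX S hS h1).1

theorem regular_iff {f : Subgroup G → Set (Subgroup G)} (hf : IsNormalizerFunctor p f)
    {M : Subgroup G} : IsFunctorRegular p f M ↔ RegularM p f M := by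
  rw [IsFunctorRegular, controls_iff]
  constructor
  · intro h P Q hP hQ hPQ hne
    obtain ⟨P', hP'⟩ := hP
    obtain ⟨Q', hQ'⟩ := hQ
    subst hP' hQ'
    have h1 := h P' Q' (isSyl_top_iff.mpr ⟨P', rfl⟩) (isSyl_top_iff.mpr ⟨Q', rfl⟩)
      (fun h => hPQ (by rw [h])) (fun h => hne (by
        rw [← Subgroup.map_inf _ _ _ M.subtype_injective, h, Subgroup.map_bot]))
    rw [← Subgroup.map_inf _ _ _ M.subtype_injective]
    exact Relation.ReflTransGen.lift (fun X : Subgroup ↥M => X.map M.subtype)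
      (fun a b hab => (key_link hf _ a b).mp hab) _ _ h1
  · intro h P Q hP hQ hPQ hne
    have h1 := h (P.map M.subtype) (Q.map M.subtype) (isSyl_top_map.mp hP) (isSyl_top_map.mp hQ)
      (fun h => hPQ (Subgroup.map_injective M.subtype_injective h)) (fun h => hne (by
        rw [← Subgroup.map_inf _ _ _ M.subtype_injective] at h
        exact (Subgroup.map_eq_bot_iff_of_injective _ M.subtype_injective).mp h))
    rw [← Subgroup.map_inf _ _ _ M.subtype_injective] at h1
    have e : ∀ X : Subgroup ↥M, (X.map M.subtype).subgroupOf M = X := fun X =>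
      Subgroup.comap_map_eq_self_of_injective M.subtype_injective X
    have h2 := Relation.ReflTransGen.lift (p := Link p ((fun X : Subgroup G => X.subgroupOf M) ''
      functorFamily p f M) (P ⊓ Q)) (fun X : Subgroup G => X.subgroupOf M) (fun a b hab => by
        have ha : (a.subgroupOf M).map M.subtype = a := by
          rw [Subgroup.subgroupOf_map_subtype, inf_eq_left.mpr hab.1.le]
        have hb : (b.subgroupOf M).map M.subtype = b := by
          rw [Subgroup.subgroupOf_map_subtype, inf_eq_left.mpr hab.2.1.le]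
        exact (key_link hf _ _ _).mpr (by rw [ha, hb]; exact hab)) _ _ h1
    change ReflTransGen _ ((P.map M.subtype).subgroupOf M) ((Q.map M.subtype).subgroupOf M) at h2
    rw [e, e] at h2
    exact h2

/-! ### equivariance -/

theorem mem_functor_cj {f : Subgroup G → Set (Subgroup G)} (hf : IsNormalizerFunctor p f)
    {R F : Subgroup G} (hR : IsPGroup p R) (hF : F ∈ f R) (g : G) :
    subgroupConjRight g F ∈ f (subgroupConjRight g R) := by
  have := (hf R hR).2 g⁻¹
  rw [subgroupConjRight, subgroupConjRight, this]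
  exact ⟨F, hF, rfl⟩

theorem LinkM.cj {f : Subgroup G → Set (Subgroup G)} (hf : IsNormalizerFunctor p f)
    {M D P Q : Subgroup G} (h : LinkM p f M D P Q) (g : G) :
    LinkM p f (subgroupConjRight g M) (subgroupConjRight g D) (subgroupConjRight g P)
      (subgroupConjRight g Q) := by
  obtain ⟨h1, h2, R, F, h3, h4, h5, h6, ⟨x, hx1, hx2, hx3⟩, h8⟩ := h
  refine ⟨h1.cj g, h2.cj g, subgroupConjRight g R, subgroupConjRight g F, h3.cj g,
    mem_functor_cj hf h3.isPGroup h4 g, ?_, ?_, ⟨g⁻¹ * x * g, ?_, ?_, ?_⟩, ?_⟩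
  · rw [← cj_normalizer]; exact cj_mono h5
  · rw [← cj_normalizer]; exact cj_mono h6
  · rw [mem_cj, show g * (g⁻¹ * x * g) * g⁻¹ = x by group]; exact hx1
  · rw [← cj_normalizer, mem_cj, show g * (g⁻¹ * x * g) * g⁻¹ = x by group]; exact hx2
  · rw [cj_cj, show g * (g⁻¹ * x * g) = x * g by group, ← cj_cj, hx3]
  · rw [← cj_inf]; exact cj_mono h8

theorem rtgM_cj {f : Subgroup G → Set (Subgroup G)} (hf : IsNormalizerFunctor p f)
    {M D P Q : Subgroup G} (h : ReflTransGen (LinkM p f M D) P Q) (g : G) :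
    ReflTransGen (LinkM p f (subgroupConjRight g M) (subgroupConjRight g D))
      (subgroupConjRight g P) (subgroupConjRight g Q) := by
  induction h with
  | refl => exact .refl
  | tail _ h2 ih => exact ih.tail (LinkM.cj hf h2 g)

theorem RegularM.cj {f : Subgroup G → Set (Subgroup G)} (hf : IsNormalizerFunctor p f)
    {M : Subgroup G} (h : RegularM p f M) (g : G) : RegularM p f (subgroupConjRight g M) := by
  intro P Q hP hQ hPQ hne
  have hP' := hP.cj g⁻¹
  have hQ' := hQ.cj g⁻¹
  rw [cj_inv_cj] at hP' hQ'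
  have h1 := h _ _ hP' hQ' (fun h => hPQ (by
    have := congrArg (subgroupConjRight g) h
    rwa [cj_cj_inv, cj_cj_inv] at this)) (fun h => hne (by
    rw [← cj_inf] at h
    have := congrArg (subgroupConjRight g) h
    rwa [cj_cj_inv, cj_bot] at this))
  have h2 := rtgM_cj hf h1 g
  rwa [← cj_inf, cj_cj_inv, cj_cj_inv, cj_cj_inv] at h2

theorem LinkM.top {f : Subgroup G → Set (Subgroup G)} {M S D P Q : Subgroup G}
    (hS : IsSyl p ⊤ S) (hSM : S ≤ M) (h : LinkM p f M D P Q) : LinkM p f ⊤ D P Q := by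
  have hS' : IsSyl p M S := hS.of_le hSM le_top
  have key : ∀ P, IsSyl p M P → IsSyl p ⊤ P := by
    intro P hP
    apply isSyl_of_card le_top
    rw [hP.card_eq hS', hS.card]
  obtain ⟨h1, h2, R, F, h3, h4, h5, h6, ⟨x, hx1, hx2, hx3⟩, h8⟩ := h
  exact ⟨key _ h1, key _ h2, R, F, key _ h3, h4, h5, h6, ⟨x, Subgroup.mem_top _, hx2, hx3⟩, h8⟩

theorem rtgM_top {f : Subgroup G → Set (Subgroup G)} {M S D P Q : Subgroup G}
    (hS : IsSyl p ⊤ S) (hSM : S ≤ M) (h : ReflTransGen (LinkM p f M D) P Q) :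
    ReflTransGen (LinkM p f ⊤ D) P Q := by
  induction h with
  | refl => exact .refl
  | tail _ h2 ih => exact ih.tail (LinkM.top hS hSM h2)

/-- S2957 -/
theorem regular_of_factorization {f : Subgroup G → Set (Subgroup G)}
    (hf : IsNormalizerFunctor p f) (S G₁ G₂ : Subgroup G) (hS : IsSyl p ⊤ S) (h₁ : S ≤ G₁)
    (h₂ : S ≤ G₂)
    (hU : ∀ g : G, ∃ U, IsSyl p ⊤ U ∧ S ⊓ subgroupConjRight g S ≤ U ∧
      U ≤ G₁ ⊓ subgroupConjRight g G₂)
    (hr₁ : RegularM p f G₁) (hr₂ : RegularM p f G₂) : RegularM p f ⊤ := by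
  have main : ∀ g : G, S ⊓ subgroupConjRight g S ≠ ⊥ →
      ReflTransGen (LinkM p f ⊤ (S ⊓ subgroupConjRight g S)) S (subgroupConjRight g S) := by
    intro g hD
    obtain ⟨U, hU, hDU, hUle⟩ := hU g
    set T := subgroupConjRight g S with hT
    have hTs : IsSyl p ⊤ T := by have := hS.cj g; rwa [cj_top] at this
    have s1 : ReflTransGen (LinkM p f ⊤ (S ⊓ T)) S U := by
      by_cases hSU : S = U
      · rw [hSU]
      · have h3 := hr₁ S U (hS.of_le h₁ le_top) (hU.of_le (hUle.trans inf_le_left) le_top) hSU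
          (fun h => hD (by
            rw [eq_bot_iff, ← h]
            exact le_inf inf_le_left hDU))
        exact rtgM_mono (rtgM_top hS h₁ h3) (le_inf inf_le_left hDU)
    have s2 : ReflTransGen (LinkM p f ⊤ (S ⊓ T)) U T := by
      by_cases hUT : U = T
      · rw [hUT]
      · have h3 := (hr₂.cj hf g) U T (hU.of_le (hUle.trans inf_le_right) le_top)
          (hTs.of_le (cj_mono h₂) le_top) hUT
          (fun h => hD (by
            rw [eq_bot_iff, ← h]
            exact le_inf hDU inf_le_right))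
        exact rtgM_mono (rtgM_top hTs (cj_mono h₂) h3) (le_inf hDU inf_le_right)
    exact s1.trans s2
  intro P Q hP hQ hPQ hne
  obtain ⟨a, _, ha⟩ := hP.conj hS
  obtain ⟨b, _, hb⟩ := hQ.conj hS
  have h1 : subgroupConjRight a⁻¹ P = S := by rw [← ha, cj_inv_cj]
  have h2 : subgroupConjRight a⁻¹ Q = subgroupConjRight (b * a⁻¹) S := by
    rw [← hb, cj_cj]
  have h3 := main (b * a⁻¹) (fun h => hne (by
    rw [← h2] at h
    have h4 : subgroupConjRight a⁻¹ (P ⊓ Q) = ⊥ := by rw [cj_inf, h1, h]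
    have := congrArg (subgroupConjRight a) h4
    rwa [cj_cj_inv, cj_bot] at this))
  have h4 := rtgM_cj hf h3 a
  rw [← h2, cj_top, cj_inf, cj_cj_inv, ha] at h4
  exact h4

end

end Cfsg.Agent.H555.SylChain
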